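import Cfsg.Agent.H316.HT.Defs
import Mathlib.GroupTheory.Coset.Card
import Mathlib.GroupTheory.Subgroup.Simple
import Mathlib.GroupTheory.GroupAction.ConjAct
import Mathlib.GroupTheory.PGroup

/-!
# S4933: the simple factors of a nonabelian minimal normal subgroup (helper316)

`Fac N S` : `N` is a minimal normal subgroup of `G`, not abelian, `S ≤ N` is minimal among the nontrivial subgroups
normalized by `N`.
-/

set_option autoImplicit false

open Subgroup

namespace Cfsg.Agent.H316.HT

universe u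

variable {G : Type u} [Group G]

/-- the configuration -/
structure Fac (N S : Subgroup G) : Prop where
  nor : N.Normal
  ne : N ≠ ⊥
  minN : ∀ K : Subgroup G, K.Normal → K ≤ N → K ≠ ⊥ → K = N
  nab : ¬ ∀ x ∈ N, ∀ y ∈ N, x * y = y * x
  le : S ≤ N
  neS : S ≠ ⊥
  norS : ∀ n ∈ N, ∀ x ∈ S, n * x * n⁻¹ ∈ S
  minS : ∀ T : Subgroup G, T ≤ S → T ≠ ⊥ → (∀ n ∈ N, ∀ x ∈ T, n * x * n⁻¹ ∈ T) → T = S

theorem exists_fac [Finite G] (N : Subgroup G) (nor : N.Normal) (ne : N ≠ ⊥)
    (minN : ∀ K : Subgroup G, K.Normal → K ≤ N → K ≠ ⊥ → K = N)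
    (nab : ¬ ∀ x ∈ N, ∀ y ∈ N, x * y = y * x) : ∃ S, Fac N S := by
  classical
  have h : ∃ n : ℕ, ∃ S : Subgroup G, S ≤ N ∧ S ≠ ⊥ ∧ (∀ n ∈ N, ∀ x ∈ S, n * x * n⁻¹ ∈ S) ∧ Nat.card S = n :=
    ⟨_, N, le_rfl, ne, fun n hn x hx => N.mul_mem (N.mul_mem hn hx) (N.inv_mem hn), rfl⟩
  obtain ⟨S, h1, h2, h3, h4⟩ := Nat.find_spec h
  refine ⟨S, nor, ne, minN, nab, h1, h2, h3, fun T hT hT1 hT2 => ?_⟩
  have h5 := Nat.find_min' h ⟨T, hT.trans h1, hT1, hT2, rfl⟩
  rw [← h4] at h5
  exact Subgroup.eq_of_le_of_card_ge hT h5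

/-- the conjugate of a subgroup -/
def cj (g : G) (S : Subgroup G) : Subgroup G := S.map (MulAut.conj g).toMonoidHom

theorem mem_cj {g x : G} {S : Subgroup G} : x ∈ cj g S ↔ g⁻¹ * x * g ∈ S := by
  constructor
  · rintro ⟨y, hy, rfl⟩
    have h : g⁻¹ * (g * y * g⁻¹) * g = y := by group
    change g⁻¹ * (g * y * g⁻¹) * g ∈ S
    rw [h]; exact hy
  · intro h
    refine ⟨_, h, ?_⟩
    change g * (g⁻¹ * x * g) * g⁻¹ = x
    group

theorem conj_mem_cj {g x : G} {S : Subgroup G} (h : x ∈ S) : g * x * g⁻¹ ∈ cj g S :=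
  mem_cj.2 (by have h1 : g⁻¹ * (g * x * g⁻¹) * g = x := by group
               rw [h1]; exact h)

theorem card_cj (g : G) (S : Subgroup G) : Nat.card (cj g S) = Nat.card S :=
  Subgroup.card_map_of_injective (MulAut.conj g).injective

theorem cj_one (S : Subgroup G) : cj 1 S = S := by
  ext x; rw [mem_cj]; simp

theorem cj_mul (g h : G) (S : Subgroup G) : cj (g * h) S = cj g (cj h S) := by
  ext x; rw [mem_cj, mem_cj, mem_cj]
  have : (g * h)⁻¹ * x * (g * h) = h⁻¹ * (g⁻¹ * x * g) * h := by group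
  rw [this]

theorem mem_normalizer_of_le [Finite G] {g : G} {S : Subgroup G} (h : S ≤ cj g S) :
    g ∈ normalizer (S : Set G) := by
  have h1 : S = cj g S := Subgroup.eq_of_le_of_card_ge h (card_cj g S).le
  rw [mem_normalizer_iff]
  intro x
  constructor
  · intro hx
    have := conj_mem_cj (g := g) hx
    rwa [← h1] at this
  · intro hx
    have h2 : g * x * g⁻¹ ∈ cj g S := h1 ▸ hx
    rw [mem_cj] at h2
    have h3 : g⁻¹ * (g * x * g⁻¹) * g = x := by group
    rwa [h3] at h2

theorem cj_eq_iff [Finite G] {g : G} {S : Subgroup G} : cj g S = S ↔ g ∈ normalizer (S : Set G) := by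
  constructor
  · intro h; exact mem_normalizer_of_le h.ge
  · intro h
    ext x
    rw [mem_cj]
    rw [mem_normalizer_iff] at h
    rw [h (g⁻¹ * x * g)]
    have h3 : g * (g⁻¹ * x * g) * g⁻¹ = x := by group
    rw [h3]

namespace Fac

variable {N S : Subgroup G}

theorem cj_le (h : Fac N S) (g : G) : cj g S ≤ N := by
  intro x hx
  rw [mem_cj] at hx
  have h1 := h.nor.conj_mem _ (h.le hx) g
  have h2 : g * (g⁻¹ * x * g) * g⁻¹ = x := by group
  rwa [h2] at h1

theorem norcj (h : Fac N S) (g : G) : ∀ n ∈ N, ∀ x ∈ cj g S, n * x * n⁻¹ ∈ cj g S := by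
  intro n hn x hx
  rw [mem_cj] at hx ⊢
  have h1 : g⁻¹ * n * g ∈ N := by
    have := h.nor.conj_mem n hn g⁻¹
    rwa [inv_inv] at this
  have h2 := h.norS _ h1 _ hx
  have h3 : g⁻¹ * n * g * (g⁻¹ * x * g) * (g⁻¹ * n * g)⁻¹ = g⁻¹ * (n * x * n⁻¹) * g := by group
  rwa [h3] at h2

theorem conj (h : Fac N S) (g : G) : Fac N (cj g S) where
  nor := h.nor
  ne := h.ne
  minN := h.minN
  nab := h.nab
  le := h.cj_le g
  neS := by
    intro h1
    apply h.neS
    rw [eq_bot_iff]
    intro x hx
    have h2 := conj_mem_cj (g := g) hx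
    rw [h1, mem_bot] at h2
    rw [mem_bot]
    have h3 : x = g⁻¹ * (g * x * g⁻¹) * g := by group
    rw [h3, h2]; group
  norS := h.norcj g
  minS := by
    intro T hT hT1 hT2
    have h1 : cj g⁻¹ T = S := by
      apply h.minS
      · intro x hx
        rw [mem_cj, inv_inv] at hx
        have h2 := mem_cj.1 (hT hx)
        have h3 : g⁻¹ * (g * x * g⁻¹) * g = x := by group
        rwa [h3] at h2
      · intro h2
        apply hT1
        rw [eq_bot_iff]
        intro x hx
        have h3 := conj_mem_cj (g := g⁻¹) hx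
        rw [h2, mem_bot] at h3
        rw [mem_bot]
        have h4 : x = g * (g⁻¹ * x * g⁻¹⁻¹) * g⁻¹ := by group
        rw [h4, h3]; group
      · intro n hn x hx
        rw [mem_cj, inv_inv] at hx ⊢
        have h2 : g * n * g⁻¹ ∈ N := h.nor.conj_mem n hn g
        have h3 := hT2 _ h2 _ hx
        have h4 : g * n * g⁻¹ * (g * x * g⁻¹) * (g * n * g⁻¹)⁻¹ = g * (n * x * n⁻¹) * g⁻¹ := by group
        rwa [h4] at h3
    rw [← h1, ← cj_mul, mul_inv_cancel, cj_one]

/-- two factors commute -/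
theorem comm [Finite G] (h : Fac N S) {g : G} (hg : g ∉ normalizer (S : Set G)) {x y : G} (hx : x ∈ S)
    (hy : y ∈ cj g S) : x * y = y * x := by
  have h1 : S ⊓ cj g S = ⊥ := by
    by_contra hne
    have h2 := h.minS (S ⊓ cj g S) inf_le_left hne (fun n hn z hz =>
      ⟨h.norS n hn z hz.1, h.norcj g n hn z hz.2⟩)
    exact hg (mem_normalizer_of_le (inf_eq_left.1 h2))
  have h2 : x * y * x⁻¹ * y⁻¹ ∈ S ⊓ cj g S := by
    constructor
    · have h3 := h.norS y (h.cj_le g hy) x⁻¹ (S.inv_mem hx)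
      have h4 : x * y * x⁻¹ * y⁻¹ = x * (y * x⁻¹ * y⁻¹) := by group
      rw [h4]; exact S.mul_mem hx h3
    · exact (cj g S).mul_mem (h.norcj g x (h.le hx) y hy) ((cj g S).inv_mem hy)
  rw [h1, mem_bot] at h2
  have h3 : x * y = (x * y * x⁻¹ * y⁻¹) * (y * x) := by group
  rw [h3, h2, one_mul]

theorem comm' [Finite G] (h : Fac N S) : ∀ g : G, g ∉ normalizer (S : Set G) → ∀ x ∈ S, ∀ y ∈ S,
    x * (g * y * g⁻¹) = (g * y * g⁻¹) * x :=
  fun _ hg _ hx _ hy => h.comm hg hx (conj_mem_cj hy)

/-- a subgroup containing all the factors contains `N` -/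
theorem le_of_cj (h : Fac N S) {K : Subgroup G} (hK : ∀ g : G, cj g S ≤ K) : N ≤ K := by
  have h1 : (⨆ g : G, cj g S) = N := by
    apply h.minN
    · refine ⟨fun x hx g => ?_⟩
      have h2 : cj g (⨆ k : G, cj k S) ≤ ⨆ k : G, cj k S := by
        unfold cj
        rw [Subgroup.map_iSup]
        refine iSup_le fun k => ?_
        have h3 := cj_mul g k S
        unfold cj at h3
        rw [← h3]
        exact le_iSup (fun k : G => Subgroup.map (MulAut.conj k).toMonoidHom S) (g * k)
      exact h2 (conj_mem_cj hx)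
    · exact iSup_le fun g => h.cj_le g
    · intro h2
      apply h.neS
      rw [eq_bot_iff, ← h2]
      refine le_trans (le_of_eq (cj_one S).symm) (le_iSup (fun k : G => cj k S) 1)
  rw [← h1]
  exact iSup_le hK

/-- the factors are not abelian -/
theorem nabS [Finite G] (h : Fac N S) : ¬ ∀ x ∈ S, ∀ y ∈ S, x * y = y * x := by
  intro hab
  apply h.nab
  have key : ∀ (g : G), ∀ x ∈ cj g S, N ≤ centralizer ({x} : Set G) := by
    intro g x hx
    apply h.le_of_cj
    intro k y hy
    rw [mem_centralizer_singleton_iff]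
    -- x ∈ cj g S, y ∈ cj k S
    by_cases hc : g⁻¹ * k ∈ normalizer (S : Set G)
    · have h1 : cj k S = cj g S := by
        have h2 : cj k S = cj g (cj (g⁻¹ * k) S) := by rw [← cj_mul]; congr 1; group
        rw [h2, cj_eq_iff.2 hc]
      rw [h1, mem_cj] at hy
      rw [mem_cj] at hx
      have h3 := hab _ hy _ hx
      have h4 : y * x = g * (g⁻¹ * y * g * (g⁻¹ * x * g)) * g⁻¹ := by group
      have h5 : x * y = g * (g⁻¹ * x * g * (g⁻¹ * y * g)) * g⁻¹ := by group
      rw [h4, h5, h3]
    · have hy' : g⁻¹ * y * g ∈ cj (g⁻¹ * k) S := by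
        rw [mem_cj] at hy ⊢
        have h6 : (g⁻¹ * k)⁻¹ * (g⁻¹ * y * g) * (g⁻¹ * k) = k⁻¹ * y * k := by group
        rwa [h6]
      rw [mem_cj] at hx
      have h3 := h.comm hc hx hy'
      have h4 : y * x = g * (g⁻¹ * y * g * (g⁻¹ * x * g)) * g⁻¹ := by group
      have h5 : x * y = g * (g⁻¹ * x * g * (g⁻¹ * y * g)) * g⁻¹ := by group
      rw [h4, h5, h3]
  intro x hx y hy
  have h1 : N ≤ centralizer ({y} : Set G) := by
    apply h.le_of_cj
    intro g z hz
    have h2 := key g z hz hy
    rw [mem_centralizer_singleton_iff] at h2 ⊢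
    exact h2.symm
  have h2 := h1 hx
  rw [mem_centralizer_singleton_iff] at h2
  exact h2

/-- the factors are simple -/
theorem simple [Finite G] (h : Fac N S) : IsSimpleGroup S := by
  have hnt : Nontrivial S := (Subgroup.nontrivial_iff_ne_bot S).2 h.neS
  refine ⟨fun T hT => ?_⟩
  by_cases h1 : T = ⊥
  · exact Or.inl h1
  · right
    have h2 : T.map S.subtype = S := by
      apply h.minS
      · exact map_subtype_le T
      · intro h3
        exact h1 ((T.map_eq_bot_iff_of_injective S.subtype_injective).1 h3)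
      · -- the normalizer of T contains all factors
        have h3 : N ≤ normalizer ((T.map S.subtype : Subgroup G) : Set G) := by
          apply h.le_of_cj
          intro g n hn
          have key : ∀ n ∈ cj g S, ∀ x ∈ T.map S.subtype, n * x * n⁻¹ ∈ T.map S.subtype := by
            rintro n hn _ ⟨x, hx, rfl⟩
            by_cases hg : g ∈ normalizer (S : Set G)
            · rw [cj_eq_iff.2 hg] at hn
              exact ⟨⟨n, hn⟩ * x * ⟨n, hn⟩⁻¹, hT.conj_mem x hx _, rfl⟩
            · have h4 := h.comm hg x.2 hn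
              have h5 : n * S.subtype x * n⁻¹ = S.subtype x := by
                change n * (x : G) * n⁻¹ = (x : G)
                rw [← h4]; group
              rw [h5]
              exact ⟨x, hx, rfl⟩
          rw [mem_normalizer_iff]
          intro x
          refine ⟨key n hn x, fun hx => ?_⟩
          have h6 := key n⁻¹ ((cj g S).inv_mem hn) _ hx
          have h7 : n⁻¹ * (n * x * n⁻¹) * n⁻¹⁻¹ = x := by group
          rwa [h7] at h6
        intro n hn x hx
        exact (mem_normalizer_iff.1 (h3 hn) x).1 hx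
    rw [eq_top_iff]
    intro x _
    have h3 : (x : G) ∈ T.map S.subtype := h2.symm ▸ x.2
    obtain ⟨y, hy, hyx⟩ := h3
    have h4 : y = x := Subtype.ext hyx
    exact h4 ▸ hy

/-- the intersection with another factor -/
theorem inf_cj [Finite G] (h : Fac N S) {g : G} (hg : g ∉ normalizer (S : Set G)) : S ⊓ cj g S = ⊥ := by
  by_contra hne
  have h2 := h.minS (S ⊓ cj g S) inf_le_left hne (fun n hn z hz =>
    ⟨h.norS n hn z hz.1, h.norcj g n hn z hz.2⟩)
  exact hg (mem_normalizer_of_le (inf_eq_left.1 h2))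

/-- `N` normalizes `S` -/
theorem le_normalizer (h : Fac N S) : N ≤ normalizer (S : Set G) := by
  intro n hn
  rw [mem_normalizer_iff]
  intro x
  refine ⟨h.norS n hn x, fun hx => ?_⟩
  have h6 := h.norS n⁻¹ (N.inv_mem hn) _ hx
  have h7 : n⁻¹ * (n * x * n⁻¹) * n⁻¹⁻¹ = x := by group
  rwa [h7] at h6

/-- the centre of `N` is trivial -/
theorem center [Finite G] (h : Fac N S) {x : G} (hx : x ∈ N) (hc : ∀ y ∈ N, x * y = y * x) : x = 1 := by
  have h1 : (N ⊓ centralizer (N : Set G)) = ⊥ := by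
    by_contra hne
    have hn := h.nor
    have h2 := h.minN (N ⊓ centralizer (N : Set G)) inferInstance inf_le_left hne
    apply h.nab
    intro a ha b hb
    have h3 : a ∈ N ⊓ centralizer (N : Set G) := h2.symm ▸ ha
    exact ((mem_centralizer_iff.1 h3.2) b hb).symm
  have h2 : x ∈ N ⊓ centralizer (N : Set G) := ⟨hx, mem_centralizer_iff.2 fun y hy => (hc y hy).symm⟩
  rwa [h1, mem_bot] at h2

/-- a prime dividing `|N|` divides `|S|` -/
theorem dvd_card [Finite G] (h : Fac N S) {p : ℕ} [hp : Fact p.Prime] (hpN : p ∣ Nat.card N) :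
    p ∣ Nat.card S := by
  by_contra hcon
  obtain ⟨x, hx⟩ := exists_prime_orderOf_dvd_card' p hpN
  have hxN : (x : G) ∈ N := x.2
  have hx1 : (x : G) ^ p = 1 := by
    have := pow_orderOf_eq_one x
    rw [hx] at this
    have h2 : ((x ^ p : N) : G) = 1 := by rw [this]; rfl
    simpa using h2
  have hne : (x : G) ≠ 1 := by
    intro h1
    have h2 : x = 1 := Subtype.ext h1
    rw [h2, orderOf_one] at hx
    exact hp.out.one_lt.ne hx
  apply hne
  apply h.center hxN
  -- N centralizes x
  have key : N ≤ centralizer ({(x : G)} : Set G) := by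
    apply h.le_of_cj
    intro g y hy
    rw [mem_centralizer_singleton_iff]
    -- S' = cj g S, x acts on S' ; N = S' C_N(S')
    have hS' := h.conj g
    have hcard : ¬ p ∣ Nat.card (cj g S) := by rw [card_cj]; exact hcon
    -- N ≤ S' C(S')
    set S' := cj g S with hS'def
    let K : Subgroup G :=
      { carrier := {z | ∃ s ∈ S', ∃ c, (∀ w ∈ S', w * c = c * w) ∧ z = s * c}
        one_mem' := ⟨1, S'.one_mem, 1, fun w _ => by simp, by simp⟩
        mul_mem' := by
          rintro a b ⟨s, hs, c, hc, rfl⟩ ⟨s', hs', c', hc', rfl⟩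
          refine ⟨s * s', S'.mul_mem hs hs', c * c', fun w hw => ?_, ?_⟩
          · rw [← mul_assoc, hc w hw, mul_assoc, hc' w hw, mul_assoc]
          · calc s * c * (s' * c') = s * (c * s') * c' := by group
              _ = s * (s' * c) * c' := by rw [hc s' hs']
              _ = s * s' * (c * c') := by group
        inv_mem' := by
          rintro a ⟨s, hs, c, hc, rfl⟩
          have hc' : ∀ w ∈ S', w * c⁻¹ = c⁻¹ * w := fun w hw => by
            have := hc w hw
            calc w * c⁻¹ = c⁻¹ * (c * w) * c⁻¹ := by group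
              _ = c⁻¹ * (w * c) * c⁻¹ := by rw [this]
              _ = c⁻¹ * w := by group
          refine ⟨s⁻¹, S'.inv_mem hs, c⁻¹, hc', ?_⟩
          rw [mul_inv_rev, ← hc' _ (S'.inv_mem hs)] }
    have hle : N ≤ K := by
      apply hS'.le_of_cj
      intro k
      by_cases hk : k ∈ normalizer (S' : Set G)
      · rw [cj_eq_iff.2 hk]
        intro z hz
        exact ⟨z, hz, 1, fun w _ => by simp, by simp⟩
      · intro z hz
        exact ⟨1, S'.one_mem, z, fun w hw => hS'.comm hk hw hz, by simp⟩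
    obtain ⟨s, hs, c, hc, hsc⟩ := hle hxN
    have hscc : Commute s c := hc s hs
    have h1 : s ^ p * c ^ p = 1 := by rw [← hscc.mul_pow, ← hsc, hx1]
    have hZ : S' ⊓ centralizer (S' : Set G) = ⊥ := by
      by_contra hne
      have h2 := hS'.minS (S' ⊓ centralizer (S' : Set G)) inf_le_left hne (by
        intro n hn z hz
        refine ⟨hS'.norS n hn z hz.1, mem_centralizer_iff.2 fun w hw => ?_⟩
        have h3 := hS'.norS n⁻¹ (N.inv_mem hn) w hw
        have h4 := mem_centralizer_iff.1 hz.2 _ h3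
        rw [inv_inv] at h4
        calc w * (n * z * n⁻¹) = n * ((n⁻¹ * w * n) * z) * n⁻¹ := by group
          _ = n * (z * (n⁻¹ * w * n)) * n⁻¹ := by rw [h4]
          _ = n * z * n⁻¹ * w := by group)
      apply hS'.nabS
      intro a ha b hb
      have h3 : a ∈ S' ⊓ centralizer (S' : Set G) := h2.symm ▸ ha
      exact ((mem_centralizer_iff.1 h3.2) b hb).symm
    have h2 : s ^ p = 1 := by
      have h3 : s ^ p ∈ S' ⊓ centralizer (S' : Set G) := by
        refine ⟨S'.pow_mem hs p, mem_centralizer_iff.2 fun w hw => ?_⟩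
        have h4 : s ^ p = (c ^ p)⁻¹ := eq_inv_of_mul_eq_one_left h1
        rw [h4]
        have h5 : Commute w c := hc w hw
        exact (h5.pow_right p).inv_right
      rwa [hZ, mem_bot] at h3
    have h3 : s = 1 := by
      by_contra hs1
      apply hcard
      have h4 : orderOf s = p := orderOf_eq_prime h2 hs1
      have h5 : orderOf (⟨s, hs⟩ : S') = p := by rw [← h4]; exact (Subgroup.orderOf_mk s hs).symm ▸ rfl
      rw [← h5]
      exact orderOf_dvd_natCard _
    rw [h3, one_mul] at hsc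
    rw [hsc]
    exact hc y hy
  intro y hy
  have := key hy
  rw [mem_centralizer_singleton_iff] at this
  exact this.symm

end Fac

end Cfsg.Agent.H316.HT
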